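import Cfsg.Agent.Chev.Spec
/-! Orders of semisimple elements centralising a Sylow subgroup of prime order: `wt_mul`, the pruned
enumeration `Cert.allWQ` of the Weyl group, `Big.exists_data_of_sylow`, `Big.orderOf_dvd_of_sylow`. -/
namespace Cfsg.Agent.Chev
open Cfsg.Lie Finset
variable {D : ChevalleyDatum} [g : Good D] {F : Type*} [Field F]

theorem wt_mul (w w' : WG D) (a : Sm D → Fˣ) : wt (w * w') a = wt w (wt w' a) := funext fun j => by
  change ∏ i, a i ^ cov ((w * w') • sm i) j = ∏ i, (∏ k, a k ^ cov (w' • sm k) i) ^ cov (w • sm i) j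
  simp only [← prod_zpow, ← zpow_mul]
  rw [prod_comm]
  exact prod_congr rfl fun i _ => by rw [← zpow_sum', mul_smul, ← wc_cov, wc_apply]

theorem wt_one (a : Sm D → Fˣ) : wt 1 a = a := funext fun j => by
  change ∏ i, a i ^ cov ((1 : WG D) • sm i) j = _
  simp [cov_sm, Pi.single_apply]

namespace Cert
variable (C : Cert) (D)

/-- A test on all admissible images of the fundamental roots. -/
def allWQ (Q : ℕ → ℕ → Bool) (P : List (ℕ × ℕ) → Bool) (n : ℕ) : List (ℕ × ℕ) → Bool :=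
  Nat.rec P (fun m ih L => fc (D.simple m) fun a => allLt D.nroots fun r => bor (!band (Q a r)
    (allL L fun q => zeq (C.pair D r q.2) (C.pair D a q.1))) (ih ((a, r) :: L))) n

variable {C D} (h : C.Ok D)
include h

theorem Ok.allWQ {Q : ℕ → ℕ → Bool} {P : List (ℕ × ℕ) → Bool} (e : C.allWQ D Q P D.rank [] = true) {w : WG D}
    (hQ : ∀ i : Sm D, Q (sm i) (w • sm i : Rt D) = true) :
    P (List.ofFn fun i => ((sm i : ℕ), (w • sm i : Rt D))) = true := by
  have : ∀ n ≤ D.rank, C.allWQ D Q P n ((List.ofFn fun i => ((sm i : ℕ), ((w • sm i : Rt D) : ℕ))).drop n) = true := by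
    intro n hn
    induction hn using Nat.decreasingInduction with
    | self => rwa [List.drop_of_length_le (by simp)]
    | of_succ n hn ih =>
    simp only [Cert.allWQ, fc_eq, allLt_iff, bor_iff, Bool.not_eq_true', ← Bool.not_eq_true, band_iff, allL_iff, zeq_iff] at ih
    rw [List.drop_eq_getElem_cons (by simpa), List.getElem_ofFn]
    refine (ih _ (w • sm ⟨n, hn⟩).2).resolve_left (not_not.mpr ⟨hQ ⟨n, hn⟩, fun q hq => ?_⟩)
    obtain ⟨i, rfl⟩ := List.mem_ofFn.mp (List.mem_of_mem_drop hq)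
    rw [← h.pair_eq (Fin.is_lt _) (Fin.is_lt _), pairing_eq, A_smul, ← pairing_eq, h.pair_eq (Fin.is_lt _) (Fin.is_lt _)]; rfl
  exact this 0 (Nat.zero_le _)

theorem Ok.dvd_of_ann {Fs : List (List ℤ)} {w : WG D}
    (h1 : C.ann D Fs (List.ofFn fun i => ((sm i : ℕ), (w • sm i : Rt D))) = true)
    {a : Sm D → Fˣ} {q : ℕ} (ha : wt w a = a ^ q) : ∃ c ∈ Fs, (orderOf a : ℤ) ∣ evH q c := by
  simp only [ann, Bool.not_eq_true', ← Bool.not_eq_true, allL_iff, not_forall, allLt_iff, zeq_iff] at h1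
  obtain ⟨c, h1, h2⟩ := h1
  push Not at h2
  refine ⟨c, h1, orderOf_dvd_iff_zpow_eq_one.mpr (funext fun j => ?_)⟩
  have h3 : ∀ c, ∏ i, a i ^ nth 0 (C.hor D (List.ofFn fun i => ((sm i : ℕ), (w • sm i : Rt D))) j c) i = a j ^ evH q c := by
    intro c
    induction c with
    | nil => simp [hor, nth, evH]
    | cons b c ih =>
      have h4 : ∀ k (n : ℤ), a k ^ (q * n) = ∏ i, a i ^ (cov (w • sm i) k * n) := fun k n => by
        rw [zpow_mul, zpow_natCast, ← Pi.pow_apply a, ← ha]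
        simp only [zpow_mul, prod_zpow]; rfl
      rw [evH, List.foldr_cons, ← evH, zpow_add, mul_comm (q : ℤ), zpow_mul, ← ih, ← prod_zpow,
        prod_congr rfl fun k _ => (zpow_mul (a k) _ _).symm.trans (mul_comm (q : ℤ) _ ▸ h4 k _), prod_comm,
        ← Fintype.prod_ite_eq' j fun i => a i ^ b, ← prod_mul_distrib]
      refine prod_congr rfl fun i _ => ?_
      generalize hu : C.hor D _ j c = u
      rw [← zpow_sum', show C.hor D _ j (b :: c) = (List.range D.rank).map _ from rfl, ← hor, hu]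
      simp [nth_eq, zpow_add, Fin.val_inj, sum_range, ← h.co_eq, cov, mul_comm]
  rw [Pi.pow_apply, ← h3]
  refine prod_eq_one fun i _ => ?_
  rw [nth_eq, List.getD_eq_getElem?_getD]
  cases e : (C.hor D _ j c)[(i : ℕ)]? with
  | none => simp
  | some x => simp [h2 j j.2 x (List.mem_of_getElem? e)]

end Cert

theorem exists_conj_zpowers {G : Type*} [Group G] [Finite G] {l : ℕ} [hl : Fact l.Prime] (hG : ¬ l ^ 2 ∣ Nat.card G)
    {x y : G} (hx : l ∣ orderOf x) (hy : orderOf y = l) : ∃ (z : G) (j : ℕ), y = (z * x * z⁻¹) ^ j := by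
  have h1 : ¬ l ∣ (Subgroup.zpowers x).index := fun e => hG (by
    rw [← Subgroup.card_mul_index (Subgroup.zpowers x), Nat.card_zpowers, pow_two]; exact mul_dvd_mul hx e)
  obtain ⟨c, hc⟩ := (IsPGroup.of_card (G := Subgroup.zpowers y) (n := 1) ((Nat.card_zpowers y).trans
    (hy.trans (pow_one l).symm))).nonempty_fixed_point_of_prime_not_dvd_card (G ⧸ Subgroup.zpowers x) h1
  obtain ⟨z, rfl⟩ := QuotientGroup.mk_surjective c
  obtain ⟨j, hj⟩ := mem_powers_iff_mem_zpowers.mpr (QuotientGroup.eq.mp (hc ⟨y, Subgroup.mem_zpowers y⟩).symm)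
  exact ⟨z, j, by rw [conj_pow, show x ^ j = _ from hj]; simp [mul_assoc]⟩

variable [Conn D] {K : Type*} [Field K] [IsAlgClosed K] {p : ℕ} [hp : Fact p.Prime] [CharP K p] (h : Big D K p) [Finite F]
  (ι : F →+* K) {N : ℕ} (hF : Nat.card F = p ^ N) {l : ℕ} [hl : Fact l.Prime]
  (hG : ¬ l ^ 2 ∣ Nat.card (D.SteinbergGroup F)) {x : D.SteinbergGroup F} (hx : l ∣ orderOf x) (hp' : ¬ p ∣ orderOf x)
include h ι hF hG hx hp'

theorem Big.exists_data_of_sylow {w₁ : WG D} {v : Sm D → ℤ} (h1 : ∀ j, (l : ℤ) ∣ wc w₁ v j - Nat.card F * v j)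
    {i : Sm D} (h2 : v i = 1) : ∃ (a : Sm D → Kˣ) (w : WG D), orderOf a = orderOf x ∧ wt w a = a ^ Nat.card F ∧
      ∀ r, (l : ℤ) ∣ Nat.card F * fl v (rtv (w • r)) - fl v (rtv r) := by
  have := finite_st (D := D) (F := F)
  have : NeZero (l : K) := ⟨by rw [Ne, CharP.cast_eq_zero_iff K p]; exact fun e => hp' (e.trans hx)⟩
  obtain ⟨ζ, hζ⟩ := HasEnoughRootsOfUnity.exists_primitiveRoot K l
  lift ζ to Kˣ using hζ.isUnit hl.out.ne_zero
  rw [IsPrimitiveRoot.coe_units_iff] at hζ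
  set b : Sm D → Kˣ := fun i => ζ ^ v i
  have h3 : wt w₁ b = b ^ p ^ N := funext fun j => by
    rw [wt_zpow, ← hF, Pi.pow_apply, ← zpow_natCast, ← zpow_mul, ← mul_inv_eq_one, ← zpow_sub, hζ.zpow_eq_one_iff_dvd, mul_comm]
    exact h1 j
  have h4 : orderOf b = l := orderOf_eq_prime (funext fun i => by
    rw [Pi.pow_apply, ← zpow_natCast, ← zpow_mul, Pi.one_apply, hζ.zpow_eq_one_iff_dvd]; exact dvd_mul_left _ _)
    fun e => hζ.ne_one hl.out.one_lt (by simpa [b, h2] using congrFun e i)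
  obtain ⟨n, -, hn⟩ := (stS D K).exists_mem_N w₁
  obtain ⟨c, hc⟩ := h.exists_twist' ι hF n
  obtain ⟨y, hy⟩ := (hc _).mp (((stS_mult D K).conj_wt hn b).trans ((congrArg _ h3).trans (fr_tor _ _).symm))
  have h6 := stMap_injective h.inj ι
  obtain ⟨z, j, e⟩ := exists_conj_zpowers hG hx (y := y) (by
    rw [← orderOf_injective _ h6, hy, ← h4, ← orderOf_injective _ h.inj]; exact (MulAut.conj c).orderOf_eq _)
  have h5 : orderOf (z * x * z⁻¹) = orderOf x := (MulAut.conj z).orderOf_eq _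
  obtain ⟨d, a, ha⟩ := h.exists_conj_tor hp' (y := stMap D ι (z * x * z⁻¹)) (by rw [← map_pow, ← h5, pow_orderOf_eq_one, map_one])
  obtain ⟨w, hw⟩ := exists_wt h.inj N d
  have h7 := hw _ _ ((h.fr_iff ι hF _).mpr ⟨_, rfl⟩) ha
  obtain ⟨u, hu⟩ := Sys.exists_cell (X := stS D K) (y := d * c) (stS_U_univ D K ▸ Subgroup.mem_top _)
  have h8 : wt u b = a ^ j := h.inj ((stCover D K).tor_eq_of_conj _ hu (by
    rw [map_pow, ← ha, conj_pow, ← map_pow, ← e, hy]; group))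
  have h9 : wt (u⁻¹ * w * u) b = b ^ Nat.card F := by
    rw [wt_mul, wt_mul, h8, map_pow, h7, ← pow_mul, mul_comm, pow_mul, ← h8, map_pow, ← wt_mul, inv_mul_cancel, wt_one, hF]
  refine ⟨wt u⁻¹ a, u⁻¹ * w * u, ?_, ?_, fun r => ?_⟩
  · rw [orderOf_injective _ (Function.LeftInverse.injective (g := wt u) fun a => by
      rw [← wt_mul, mul_inv_cancel, wt_one]), ← orderOf_injective _ h.inj, ← ha, ← h5, ← orderOf_injective _ h6]
    exact (MulAut.conj d).orderOf_eq _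
  · rw [← wt_mul, mul_inv_cancel_right, wt_mul, h7, map_pow, hF]
  · have := chi_wt (u⁻¹ * w * u) b r
    rw [h9, show chi (b ^ Nat.card F) _ = chi b _ ^ Nat.card F from map_pow (chiH _) _ _, chi_zpow, chi_zpow, ← fl_rtv,
      ← fl_rtv, ← zpow_natCast, ← zpow_mul, ← mul_inv_eq_one, ← zpow_sub, hζ.zpow_eq_one_iff_dvd, mul_comm] at this
    exact this

theorem Big.orderOf_dvd_of_sylow {C : Cert} (hC : C.Ok D) {R : ℕ} (hR : IsRefl D R) {L : List ℕ} {v : List ℤ} {q : ℕ}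
    (hq : Nat.card F = q) {i : Sm D} (h1 : (∀ i ∈ L, i < D.rank) ∧ nth 0 v i = 1 ∧ ∀ j : Sm D,
      (l : ℤ) ∣ ∑ i : Sm D, nth 0 v i * coN D (wact R L (D.simple i)) j - q * nth 0 v j) {Fs : List (List ℤ)}
    (h2 : C.allWQ D (fun a r => zeq ((q * C.fv D v r - C.fv D v a) % l) 0) (C.ann D Fs) D.rank [] = true) :
    ∃ c ∈ Fs, (orderOf x : ℤ) ∣ evH q c := by
  obtain ⟨a, w, e1, e2, e3⟩ := h.exists_data_of_sylow ι hF hG hx hp' (w₁ := wd D L) (v := vec D v) (fun j => by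
    simpa only [wc_apply, cov, hR.wd_smul h1.1, hq, vec, sm_val] using h1.2.2 j) h1.2.1
  rw [← e1]
  refine hC.dvd_of_ann (hC.allWQ h2 fun i => ?_) (hq ▸ e2)
  rw [zeq_iff, hC.fv_eq, hC.fv_eq, ← hq]
  exact Int.emod_eq_zero_of_dvd (e3 _)

end Cfsg.Agent.Chev
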