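import Cfsg.Agent.SubF.Co

/-! Subgroups of `U` that are weakly closed in `U` are unipotent radicals (`wkc`). -/

set_option autoImplicit false

namespace Cfsg.Agent.WkC

open Cfsg.Lie Cfsg.Agent.Chev Cfsg.Agent.Chev.Sys Cfsg.Agent.SubF

universe u

theorem exists_ab {G : Type u} [Group G] {Q M : Subgroup G} (h : ∀ y ∈ Q, ∀ z ∈ Q, y⁻¹ * z⁻¹ * y * z ∈ M) :
    ∃ (A : Type u) (_ : CommGroup A) (φ : G → A), (∀ y ∈ Q, ∀ z ∈ Q, φ (y * z) = φ y * φ z) ∧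
      ∀ y ∈ Q, φ y = 1 ↔ y ∈ M := by
  classical
  have hn : (M.subgroupOf Q).Normal := ⟨fun n hn g => by
    have := mul_mem (h _ (inv_mem g.2) _ (inv_mem n.2)) hn
    rw [Subgroup.mem_subgroupOf]
    simpa using this⟩
  let π := QuotientGroup.mk' (M.subgroupOf Q)
  refine ⟨Q ⧸ M.subgroupOf Q, { (inferInstance : Group (Q ⧸ M.subgroupOf Q)) with
      mul_comm := fun a b => ?_ }, fun y => if h : y ∈ Q then π ⟨y, h⟩ else 1, fun y hy z hz => ?_, fun y hy => ?_⟩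
  · obtain ⟨a, rfl⟩ := QuotientGroup.mk_surjective a
    obtain ⟨b, rfl⟩ := QuotientGroup.mk_surjective b
    rw [← QuotientGroup.mk_mul, ← QuotientGroup.mk_mul, QuotientGroup.eq, Subgroup.mem_subgroupOf]
    simpa [mul_assoc] using h _ b.2 _ a.2
  · simp only [dif_pos hy, dif_pos hz, dif_pos (mul_mem hy hz)]
    exact map_mul π ⟨y, hy⟩ ⟨z, hz⟩
  · simp only [dif_pos hy]
    exact QuotientGroup.eq_one_iff _

theorem prod3 {A F : Type*} [CommGroup A] [Field F] {L : List Tm} {g : ℕ → F → A}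
    (hg : ∀ c ∈ L, ∀ a b, g c.1 (a + b) = g c.1 a * g c.1 b) {s1 s2 s3 l1 l2 l3 : F} {c0 : Tm}
    (hL : ∀ c ∈ L, (∀ t, g c.1 t = 1) ∨ c.2.2.2 = 1 ∧
      l1 * s1 ^ c.2.2.1 + l2 * s2 ^ c.2.2.1 + l3 * s3 ^ c.2.2.1 = if c.2.2.1 = c0.2.2.1 then 1 else 0)
    (h : ∀ t u, (L.map fun c => g c.1 (c.2.1 * t ^ c.2.2.1 * u ^ c.2.2.2)).prod = 1)
    (hn : (L.map fun c => c.2.2).Nodup) (hc : c0 ∈ L) (e : c0.2.2.2 = 1) (w : F) : g c0.1 (c0.2.1 * w) = 1 := by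
  have hc1 : @List.count _ instBEqOfDecidableEq c0 L = 1 :=
    @List.count_eq_one_of_mem _ instBEqOfDecidableEq _ c0 L (List.Nodup.of_map _ hn) hc
  have k : ∀ c ∈ L, c.2.2.2 = 1 → g c.1 (c.2.1 * s1 ^ c.2.2.1 * (l1 * w) ^ c.2.2.2) *
      g c.1 (c.2.1 * s2 ^ c.2.2.1 * (l2 * w) ^ c.2.2.2) * g c.1 (c.2.1 * s3 ^ c.2.2.1 * (l3 * w) ^ c.2.2.2) =
      g c.1 (c.2.1 * (l1 * s1 ^ c.2.2.1 + l2 * s2 ^ c.2.2.1 + l3 * s3 ^ c.2.2.1) * w) := fun c hc e => by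
    rw [← hg c hc, ← hg c hc, e]; congr 1; ring
  have h1 := congrArg₂ (· * ·) (congrArg₂ (· * ·) (h s1 (l1 * w)) (h s2 (l2 * w))) (h s3 (l3 * w))
  simp only [← List.prod_map_mul, mul_one] at h1
  rw [List.prod_map_eq_pow_single c0 _ fun c hne hc' => ?_, hc1, pow_one, k c0 hc e] at h1
  · rcases hL c0 hc with h2 | h2
    · exact h2 _
    · rwa [h2.2, if_pos rfl, mul_one] at h1
  · rcases hL c hc' with h2 | h2
    · simp [h2]
    · rw [k c hc' h2.1, h2.2, if_neg fun e' => hne (List.inj_on_of_nodup_map hn hc' hc (Prod.ext e' (h2.1.trans e.symm))),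
        mul_zero, zero_mul]
      simpa using hg c hc' 0 0

variable {D : ChevalleyDatum} [g : Good D] {F : Type*} [Field F] {G : Type u} [Group G] {X : Sys D F G}

/-- The bottom of the `p_j`-string through `γ`. -/
def bot (D : ChevalleyDatum) (j γ : ℕ) : ℕ := (((D.chainEntry (D.neg (D.simple j)) γ).getLast?).map Prod.fst).getD γ

/-- `γ` occurs with coefficient `±1` in a commutator of positive root elements whose other terms are harmless. -/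
def Str (n : ℕ) (γ : Rt D) : Prop := ∃ j : Sm D, ∃ h : bot D j γ < D.nroots, Pos ⟨_, h⟩ ∧ bot D j γ ≠ D.simple j ∧
  (∃ c ∈ D.commTerms (D.simple j) (bot D j γ), c.1 = γ ∧ (c.2.1 = 1 ∨ c.2.1 = -1) ∧ c.2.2.2 = 1) ∧
  ∀ c ∈ D.commTerms (D.simple j) (bot D j γ), (c.2.2.2 = 1 ∧ c.2.2.1 ≤ n) ∨ ht γ < ∑ i : Sm D, g.rt c.1 i

instance instDecidableStr (n : ℕ) (γ : Rt D) : Decidable (Str n γ) := by unfold Str; infer_instance

variable (F) in
/-- Lagrange interpolation data. -/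
def Lag (n : ℕ) : Prop := ∀ a, 1 ≤ a → a ≤ n → ∃ s1 s2 s3 l1 l2 l3 : F, ∀ i, 1 ≤ i → i ≤ n →
  l1 * s1 ^ i + l2 * s2 ^ i + l3 * s3 ^ i = if i = a then 1 else 0

theorem lag_one : Lag F 1 := fun a h1 h2 => ⟨1, 1, 1, 1, 0, 0, fun i h3 h4 => by
  rw [if_pos (by omega)]; simp⟩

theorem lag_three {a b : F} (a0 : a ≠ 0) (a1 : a ≠ 1) (b0 : b ≠ 0) (b1 : b ≠ 1) (ab : b ≠ a) : Lag F 3 := fun k h1 h2 => by
  have e1 := sub_ne_zero.2 a1
  have e2 := sub_ne_zero.2 b1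
  have e3 := sub_ne_zero.2 ab
  interval_cases k
  · refine ⟨1, a, b, a * b / ((a - 1) * (b - 1)), -b / (a * (a - 1) * (b - a)), a / (b * (b - 1) * (b - a)),
      fun i h3 h4 => ?_⟩
    interval_cases i <;> simp <;> field_simp <;> ring
  · refine ⟨1, a, b, -(a + b) / ((a - 1) * (b - 1)), (1 + b) / (a * (a - 1) * (b - a)),
      -(1 + a) / (b * (b - 1) * (b - a)), fun i h3 h4 => ?_⟩
    interval_cases i <;> simp <;> field_simp <;> ring
  · refine ⟨1, a, b, 1 / ((a - 1) * (b - 1)), -1 / (a * (a - 1) * (b - a)), 1 / (b * (b - 1) * (b - a)),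
      fun i h3 h4 => ?_⟩
    interval_cases i <;> simp <;> field_simp <;> ring

theorem rad2 {n : ℕ} (hL : Lag F n) (hS : ∀ γ : Rt D, Pos γ → ht γ ≠ 1 → Str n γ) {J : Set (Sm D)} {M : Subgroup G}
    (hM : ∀ y ∈ X.U {r | Pos r ∧ ¬ InJ J r}, ∀ u ∈ X.UP, y⁻¹ * u⁻¹ * y * u ∈ M) (γ : Rt D)
    (hγ : Pos γ ∧ ¬ InJ J γ) (h1 : ht γ ≠ 1) (t : F) : X.x γ t ∈ M := by
  obtain ⟨N, hN⟩ := exists_lvl_empty (htF D) {r | Pos r}
  obtain ⟨A, _, φ, φm, φ1⟩ := exists_ab (Q := X.U {r | Pos r ∧ ¬ InJ J r}) fun y hy z hz =>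
    hM y hy z (X.U_mono (fun _ h => h.1) hz)
  induction e : (N - ht γ).toNat using Nat.strong_induction_on generalizing γ t with
  | _ k ih =>
  obtain ⟨j, hb, b1, b2, ⟨c0, hc0, e0, e1, e2⟩, b3⟩ := hS γ hγ.1 h1
  set ε : Rt D := ⟨_, hb⟩
  have hc0' : c0 ∈ D.commTerms (sm j) ε := hc0
  have n1 : ε ≠ sm j := fun e => b2 (congrArg Fin.val e)
  have n2 : ε ≠ ng (sm j) := nilp_Pos.ne_ng (pos_sm j) b1
  have hr : ∀ c ∈ D.commTerms (sm j) ε, ∃ h : c.1 < D.nroots, Pos ⟨c.1, h⟩ ∧ ¬ InJ J ⟨c.1, h⟩ := fun c hc => by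
    obtain ⟨h, e⟩ := commTerms_rtv hc
    obtain ⟨h', e'⟩ := commTerms_rtv hc0'
    have p1 := commTerms_pos hc
    have p2 := commTerms_pos hc0'
    refine ⟨h, fnJ_pos.1 ?_⟩
    have p3 := fnJ_pos.2 hγ
    rw [show γ = ⟨c0.1, h'⟩ from Fin.ext e0.symm, e'] at p3
    rw [e]
    simp only [map_add, map_smul, smul_eq_mul] at p3 ⊢
    have q1 := (fnJ_of_pos (J := J) (pos_sm j)).1
    have q2 := (fnJ_of_pos (J := J) b1).1
    have q3 : (1 : ℤ) ≤ c.2.2.1 := by exact_mod_cast p1.1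
    have q4 : (1 : ℤ) ≤ c.2.2.2 := by exact_mod_cast p1.2
    by_contra q5
    have q6 : fnJ J (rtv (sm j)) = 0 := by nlinarith
    have q7 : fnJ J (rtv ε) = 0 := by nlinarith
    simp [q6, q7] at p3
  have hx : ∀ c ∈ D.commTerms (sm j) ε, ∀ t, X.xN c.1 t ∈ X.U {r | Pos r ∧ ¬ InJ J r} := fun c hc t => by
    obtain ⟨h, h'⟩ := hr c hc
    exact X.xN_val ⟨c.1, h⟩ t ▸ X.x_mem_U h' t
  have hcm : ∀ t u, gword X.x (commW D (sm j) ε t u) ∈ M := fun t u => by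
    rw [← X.comm_eq n1 n2]
    by_cases h : InJ J ε
    · have : ¬ InJ J (sm j) := fun h' => by
        obtain ⟨h1, h2⟩ := hr c0 hc0'
        obtain ⟨_, e⟩ := commTerms_rtv hc0'
        have p2 := commTerms_pos hc0'
        exact h2.2 (Comb.inJ ⟨_, _, by exact_mod_cast p2.1, by exact_mod_cast p2.2, e⟩ h' h)
      simpa [mul_assoc] using inv_mem (hM _ (X.x_mem_U (by exact ⟨pos_sm j, this⟩) t) _ (X.x_mem_U b1 u))
    · exact hM _ (X.x_mem_U (by exact ⟨b1, h⟩) u) _ (X.x_mem_U (pos_sm j) t)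
  have φ0 : φ 1 = 1 := by simpa using φm 1 (one_mem _) 1 (one_mem _)
  have φp : ∀ (L : List Tm) (f : Tm → G), (∀ c ∈ L, f c ∈ X.U {r | Pos r ∧ ¬ InJ J r}) →
      φ (L.map f).prod = (L.map fun c => φ (f c)).prod := fun L f h => by
    induction L with
    | nil => exact φ0
    | cons c L ih =>
      rw [List.map_cons, List.prod_cons, List.map_cons, List.prod_cons, ← ih fun c hc => h c (.tail _ hc)]
      exact φm _ (h c (.head _)) _ (list_prod_mem fun y hy => by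
        obtain ⟨c, hc, rfl⟩ := List.mem_map.1 hy; exact h c (.tail _ hc))
  have a1 : c0.2.2.1 ≤ n := by
    refine ((b3 c0 hc0).resolve_right fun h => ?_).2
    rw [e0] at h; exact h.false
  obtain ⟨s1, s2, s3, l1, l2, l3, hl⟩ := hL _ (commTerms_pos hc0).1 a1
  have key := prod3 (L := D.commTerms (sm j) ε) (g := fun k t => φ (X.xN k t)) (c0 := c0)
    (s1 := s1) (s2 := s2) (s3 := s3) (l1 := l1) (l2 := l2) (l3 := l3)
    (fun c hc a b => by rw [← φm _ (hx c hc _) _ (hx c hc _), xN_add])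
    (fun c hc => (b3 c hc).symm.imp (fun h t => by
      obtain ⟨h', h2⟩ := hr c hc
      have a2 : ¬ (N + 1 : ℤ) ≤ htF D (rtv ⟨c.1, h'⟩) := fun e =>
        Set.notMem_empty (⟨c.1, h'⟩ : Rt D) (hN ▸ ⟨h2.1, e⟩)
      have a3 : ht γ < ht ⟨c.1, h'⟩ := h
      rw [htF_rtv] at a2
      have a4 := hγ.1.ht_pos
      exact (φ1 _ (hx c hc t)).2 (X.xN_val ⟨c.1, h'⟩ t ▸ ih _ (by omega) _ h2 (by omega) t rfl))
      fun h => ⟨h.1, hl _ (commTerms_pos hc).1 h.2⟩)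
    (fun t u => by
      have := hcm (-t) u
      rw [← φ1 _ (X.gword_mem fun p hp hp' => by
        obtain ⟨c, hc, rfl⟩ := List.mem_map.1 hp
        exact (hr c hc).2)] at this
      rw [← φp _ _ fun c hc => hx c hc _, ← this, gword, commW, List.map_map, neg_neg]
      rfl)
    (commTerms_nodup _ _) hc0' e2 (c0.2.1 * t)
  rw [φ1 _ (hx c0 hc0' _), e0, xN_val] at key
  convert key using 2
  rcases e1 with e | e <;> simp [e]

theorem Co.h [Conn D] {r : Rt D} {u : G} {t : F} (h : Co X r u t) (ζ : Rt D) {s : F} (hs : s ≠ 0) :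
    Co X r (X.h ζ s * u * (X.h ζ s)⁻¹) (s ^ A ζ r * t) := by
  have := conj_mem_of_norm (X.H_le_normalizer_U _ (X.h_mem_H ζ hs)) h
  rw [Co, ← X.h_conj ζ r hs]
  convert this using 1
  group

theorem sq_sub_sq' [Finite F] (w : F) : ∃ a b : F, w = a ^ 2 - b ^ 2 := by
  by_cases h : ringChar F = 2
  · obtain ⟨a, e⟩ := FiniteField.isSquare_of_char_two h w
    exact ⟨a, 0, by rw [e]; ring⟩
  · have := Ring.two_ne_zero h
    exact ⟨(w + 1) / 2, (w - 1) / 2, by field_simp; ring⟩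

theorem base [Conn D] [Finite F] (hT : ∀ i j : Sm D, i ≠ j → ∃ ζ, ∃ s : F, s ≠ 0 ∧ A ζ (sm j) = 0 ∧ s ^ A ζ (sm i) ≠ 1)
    {K : Subgroup G} (h1 : K ≤ X.UP) (h2 : X.H ≤ Subgroup.normalizer (K : Set G)) {i : Sm D}
    (h3 : ¬ K ≤ X.U {r | Pos r ∧ r ≠ sm i}) (w : F) : ∃ y ∈ K, Co X (sm i) y w ∧ ∀ j, j ≠ i → Co X (sm j) y 0 := by
  have l1 : ∀ j : Sm D, Lv (ht (sm j)) = {r : Rt D | Pos r} := fun j => by
    ext r; exact ⟨And.left, fun h => ⟨h, by rw [ht_sm]; exact h.ht_pos⟩⟩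
  have ex : ∀ y ∈ K, ∀ j, ∃ t, Co X (sm j) y t := fun y hy j => exists_co (by rw [l1]; exact h1 hy)
  have k1 : ∀ E : Finset (Sm D), ∃ y ∈ K, ∃ t ≠ 0, Co X (sm i) y t ∧ ∀ j ∈ E, j ≠ i → Co X (sm j) y 0 := fun E => by
    induction E using Finset.induction_on with
    | empty =>
      obtain ⟨y, hy, h⟩ := SetLike.not_le_iff_exists.1 h3
      obtain ⟨t, ht⟩ := ex y hy i
      refine ⟨y, hy, t, ?_, ht, by simp⟩
      rintro rfl
      rw [co_zero, l1] at ht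
      exact h ht
    | insert j E _ ih =>
      obtain ⟨y, hy, t, t0, a1, a2⟩ := ih
      by_cases e : j = i
      · exact ⟨y, hy, t, t0, a1, fun k hk hi => a2 k ((Finset.mem_insert.1 hk).resolve_left (e ▸ hi)) hi⟩
      obtain ⟨ζ, s, s0, b1, b2⟩ := hT i j (Ne.symm e)
      refine ⟨_, mul_mem (inv_mem hy) (conj_mem_of_norm (h2 (X.h_mem_H ζ s0)) hy), _, fun h => ?_,
        (a1.inv (pos_sm i)).mul (pos_sm i) (Co.h a1 ζ s0), fun k hk hi => ?_⟩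
      · exact b2 (mul_right_cancel₀ t0 (by linear_combination h))
      · rcases Finset.mem_insert.1 hk with rfl | hk
        · obtain ⟨u, hu⟩ := ex y hy k
          simpa [b1] using (hu.inv (pos_sm k)).mul (pos_sm k) (Co.h hu ζ s0)
        · simpa using ((a2 k hk hi).inv (pos_sm k)).mul (pos_sm k) (Co.h (a2 k hk hi) ζ s0)
  obtain ⟨y, hy, t, t0, a1, a2⟩ := k1 Finset.univ
  have k2 : ∀ s : F, ∃ y ∈ K, Co X (sm i) y (s ^ 2 * t) ∧ ∀ j, j ≠ i → Co X (sm j) y 0 := fun s => by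
    by_cases s0 : s = 0
    · exact ⟨1, one_mem _, by simp [s0, co_zero], fun j _ => by simp [co_zero]⟩
    refine ⟨_, conj_mem_of_norm (h2 (X.h_mem_H (sm i) s0)) hy, ?_, fun j hj => ?_⟩
    · simpa [A_self] using Co.h a1 (sm i) s0
    · simpa using Co.h (a2 j (Finset.mem_univ j) hj) (sm i) s0
  obtain ⟨a, b, e⟩ := sq_sub_sq' (w / t)
  obtain ⟨y1, c1, c2, c3⟩ := k2 a
  obtain ⟨y2, d1, d2, d3⟩ := k2 b
  refine ⟨_, mul_mem c1 (inv_mem d1), ?_, fun j hj => ?_⟩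
  · convert c2.mul (pos_sm i) (d2.inv (pos_sm i)) using 1
    rw [div_eq_iff t0] at e
    rw [e]; ring
  · simpa using (c3 j hj).mul (pos_sm j) ((d3 j hj).inv (pos_sm j))

theorem eq_sm_of_ht {r : Rt D} (h : Pos r) (e : ht r = 1) : ∃ i, r = sm i := by
  obtain ⟨i, hi⟩ := h.exists_pos
  exact ⟨i, (eq_of_le_of_ht (fun j => by
    rw [rtv_sm, Pi.single_apply]; split_ifs with e
    exacts [e ▸ hi, h j]) (by rw [e, ht_sm])).symm⟩

theorem wkc [Conn D] [Finite F] (c : X.Cover) {n : ℕ} (hL : Lag F n) (hS : ∀ γ : Rt D, Pos γ → ht γ ≠ 1 → Str n γ)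
    (hT : ∀ i j : Sm D, i ≠ j → ∃ ζ, ∃ s : F, s ≠ 0 ∧ A ζ (sm j) = 0 ∧ s ^ A ζ (sm i) ≠ 1)
    {K : Subgroup G} (h1 : K ≤ X.UP) (hw : ∀ y ∈ X.U Set.univ, (∀ z ∈ K, y * z * y⁻¹ ∈ X.UP) →
      y ∈ Subgroup.normalizer (K : Set G)) : ∃ J, K = X.U {r | Pos r ∧ ¬ InJ J r} := by
  let J : Set (Sm D) := {i | K ≤ X.U {r | Pos r ∧ r ≠ sm i}}
  have hB : X.B ≤ Subgroup.normalizer (K : Set G) := fun y hy => hw y (X.B_le_grp hy) fun z hz =>
    conj_mem_of_norm (X.B_le_normalizer_UP hy) (h1 hz)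
  have hQ : K ≤ X.U {r | Pos r ∧ ¬ InJ J r} := fun z hz => by
    obtain ⟨y, -, hy, hK⟩ := X.exists_mem_N_of_mem (w0_mem J)
    have := c.mem_nonInv hy nilp_Pos (h1 hz) (X.UP_le_B (h1 (conj_mem_of_norm (hK _ fun j hj =>
      hw _ (X.N_le_grp (X.n_mem_N _ one_ne_zero)) fun z hz => X.U_mono (fun _ h => h.1)
        (conj_mem_of_norm (X.U_pm_le_normalizer j (X.n_mem_U (by simp) (by simp) 1)) (hj hz))) hz)))
    exact X.U_mono (fun r hr => by exact ⟨hr.1, fun h => not_pos_w0 hr.1 h hr.2⟩) this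
  refine ⟨J, le_antisymm hQ ?_⟩
  have key : ∀ m : ℕ, X.U {r | Pos r ∧ ¬ InJ J r} ≤ X.U (lvl (htF D) {r | Pos r} (m + 1)) ⊔ K := fun m => by
    induction m with
    | zero => exact le_sup_of_le_left (X.U_mono fun r hr => by simpa [nilp_Pos.lvl_one] using hr.1)
    | succ m ih =>
      have hM := rad2 hL hS (J := J) (M := X.U (lvl (htF D) {r | Pos r} (m + 1 + 1)) ⊔ K) fun y hy u hu => by
        obtain ⟨k, hk, z, hz, rfl⟩ := (mem_sup_of_norm (h1.trans (U_le_normalizer_lvl nilp_Pos _))).1 (ih hy)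
        rw [show (k * z)⁻¹ * u⁻¹ * (k * z) * u = z⁻¹ * (u⁻¹ * k⁻¹ * u * k)⁻¹ * (u⁻¹ * z * u) by group]
        exact mul_mem (mul_mem (Subgroup.mem_sup_right (inv_mem hz)) (Subgroup.mem_sup_left (inv_mem
          (comm_mem_lvl nilp_Pos hu hk)))) (Subgroup.mem_sup_right (conj_mem_of_norm' (hB (X.UP_le_B hu)) hz))
      push_cast
      refine U_le.2 fun r hr t => ?_
      by_cases e : ht r = 1
      swap
      · exact hM r hr e t
      obtain ⟨i, rfl⟩ := eq_sm_of_ht hr.1 e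
      obtain ⟨y, hy, a1, a2⟩ := base hT h1 (X.H_le_B.trans hB) (i := i) (fun h => hr.2 (inJ_sm.2 h)) t
      have := mem_diff c (T := {r | Pos r ∧ ¬ InJ J r}) (E := Set.range sm)
        ⟨fun r h => nilp_Pos.pos r h.1, (nilp_rad J).closed⟩ (mul_mem (inv_mem (X.x_mem_U hr t)) (hQ hy)) (by
          rintro _ ⟨j, rfl⟩
          by_cases e : j = i
          · exact e ▸ a1
          · exact mul_mem (inv_mem (X.x_mem_U (by exact ⟨⟨pos_sm i, by simp⟩, by simpa using Ne.symm e⟩) t))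
              (co_zero.1 (a2 j e)))
      have a3 := U_le.2 (fun r hr t => hM r hr.1 (fun e => hr.2 (by
        obtain ⟨i, rfl⟩ := eq_sm_of_ht hr.1.1 e; exact ⟨i, rfl⟩)) t) this
      simpa using (Subgroup.mul_mem_cancel_right _ (Subgroup.mem_sup_right hy)).1 a3
  obtain ⟨N, hN⟩ := exists_lvl_empty (htF D) {r | Pos r}
  simpa [hN] using key N

/-- The torus separates the fundamental roots. -/
def Sep (D : ChevalleyDatum) [Good D] (L : List ℤ) : Prop :=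
  ∀ i j : Sm D, i ≠ j → ∃ ζ, A ζ (sm j) = 0 ∧ A ζ (sm i) ∈ L

instance instDecidableSep (L : List ℤ) : Decidable (Sep D L) := by unfold Sep; infer_instance

theorem okG2 : (∀ γ : Rt chevG2, Pos γ → ht γ ≠ 1 → Str 3 γ) ∧ Sep chevG2 [1, 2] := by decide +kernel
theorem okB2 : (∀ γ : Rt chevB2, Pos γ → ht γ ≠ 1 → Str 3 γ) ∧ Sep chevB2 [1, 2] := by decide +kernel
theorem okD4 : (∀ γ : Rt chevD4, Pos γ → ht γ ≠ 1 → Str 3 γ) ∧ Sep chevD4 [1, 2] := by decide +kernel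
theorem okF4 : (∀ γ : Rt chevF4, Pos γ → ht γ ≠ 1 → Str 3 γ) ∧ Sep chevF4 [1, 2] := by decide +kernel
theorem okE6 : (∀ γ : Rt chevE6, Pos γ → ht γ ≠ 1 → Str 1 γ) ∧ Sep chevE6 [1] := by decide +kernel
theorem okE7 : (∀ γ : Rt chevE7, Pos γ → ht γ ≠ 1 → Str 1 γ) ∧ Sep chevE7 [1] := by decide +kernel
theorem okE8 : (∀ γ : Rt chevE8, Pos γ → ht γ ≠ 1 → Str 1 γ) ∧ Sep chevE8 [1] := by decide +kernel

theorem wkc3 [Conn D] [Fintype F] (c : X.Cover) (h : (∀ γ : Rt D, Pos γ → ht γ ≠ 1 → Str 3 γ) ∧ Sep D [1, 2])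
    (h2 : Fintype.card F ≠ 2) (h3 : Fintype.card F ≠ 3) {K : Subgroup G} (h1 : K ≤ X.UP)
    (hw : ∀ y ∈ X.U Set.univ, (∀ z ∈ K, y * z * y⁻¹ ∈ X.UP) → y ∈ Subgroup.normalizer (K : Set G)) :
    ∃ J, K = X.U {r | Pos r ∧ ¬ InJ J r} := by
  classical
  have k : ∀ a b c : F, ∃ d, d ≠ a ∧ d ≠ b ∧ d ≠ c := fun a b c => by
    obtain ⟨d, -, hd⟩ := Finset.exists_mem_notMem_of_card_lt_card (s := {a, b, c}) (t := Finset.univ)
      (Finset.card_le_three.trans_lt (by have := Fintype.one_lt_card (α := F); rw [Finset.card_univ]; omega))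
    exact ⟨d, by simpa using hd⟩
  obtain ⟨a, a0, a1, a2⟩ := k 0 1 (-1)
  obtain ⟨b, b0, b1, b2⟩ := k 0 1 a
  refine wkc c (lag_three a0 a1 b0 b1 b2) h.1 (fun i j e => ?_) h1 hw
  obtain ⟨ζ, c1, c2⟩ := h.2 i j e
  refine ⟨ζ, a, a0, c1, ?_⟩
  simp only [List.mem_cons, List.not_mem_nil, or_false] at c2
  rcases c2 with e | e <;> simp [e, a1, a2, zpow_ofNat]

theorem wkc1 [Conn D] [Fintype F] (c : X.Cover) (h : (∀ γ : Rt D, Pos γ → ht γ ≠ 1 → Str 1 γ) ∧ Sep D [1])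
    (h2 : Fintype.card F ≠ 2) {K : Subgroup G} (h1 : K ≤ X.UP)
    (hw : ∀ y ∈ X.U Set.univ, (∀ z ∈ K, y * z * y⁻¹ ∈ X.UP) → y ∈ Subgroup.normalizer (K : Set G)) :
    ∃ J, K = X.U {r | Pos r ∧ ¬ InJ J r} := by
  classical
  obtain ⟨a, -, ha⟩ := Finset.exists_mem_notMem_of_card_lt_card (s := {(0 : F), 1}) (t := Finset.univ)
    (Finset.card_le_two.trans_lt (by have := Fintype.one_lt_card (α := F); rw [Finset.card_univ]; omega))
  simp only [Finset.mem_insert, Finset.mem_singleton, not_or] at ha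
  refine wkc c lag_one h.1 (fun i j e => ?_) h1 hw
  obtain ⟨ζ, c1, c2⟩ := h.2 i j e
  exact ⟨ζ, a, ha.1, c1, by simpa [List.mem_singleton.1 c2] using ha.2⟩

end Cfsg.Agent.WkC
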